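import Cfsg.Agent.H201.F4.Rad

/-!
# The coset lemma for `Q` with `Q/Z` extraspecial (helper201; box GES of helper231's plan for S2491, row F4)
-/

set_option autoImplicit false

namespace Cfsg.Agent.H201.F4

universe v

open Subgroup
open Cfsg.Agent.H6.ORE (FPz)

/-- `Q ⊴ H`, `Z ≤ Z(H)`, `t` central, `Q/Z` extraspecial with centre `⟨t⟩`; `Q/⟨t⟩ = [Q/⟨t⟩, ⟨a,b⟩]`,
`c` has rank `≥ 5` on `Q/Z⟨t⟩`, `|Z| ∣ 4` : the coset `Q [a,b]` consists of commutators `[q₁ a, q₂ b]` -/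
theorem ges {H : Type v} [Group H] [Finite H] {Q Z : Subgroup H} {t : H} (hQ : Q.Normal) (hZQ : Z ≤ Q) (hZ : Z ≤ center H)
    (hZ2 : ∀ z ∈ Z, z * z = 1) (hZ4 : Nat.card Z ∣ 4) (ht : t ∈ Q) (htc : t ∈ center H) (ht2 : t * t = 1) (htZ : t ∉ Z)
    (hcomm : ∀ x ∈ Q, ∀ y ∈ Q, x * y = y * x ∨ x * y = y * x * t) (hpow : ∀ x ∈ Q, x * x = 1 ∨ x * x = t)
    (hnd : ∀ x ∈ Q, (∀ y ∈ Q, x * y = y * x) → ∃ z ∈ Z, x = z ∨ x = z * t)
    {a b c : H} (hfp : FPz Q t a b) (hc : c * (a * b * a⁻¹ * b⁻¹)⁻¹ ∈ Q)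
    (hrk : 32 * Nat.card {x : H // x ∈ Q ∧ ∃ z ∈ Z, c * x * c⁻¹ = x * z ∨ c * x * c⁻¹ = x * z * t} ≤ Nat.card Q) :
    ∃ q₁ ∈ Q, ∃ q₂ ∈ Q, c = (q₁ * a) * (q₂ * b) * (q₁ * a)⁻¹ * (q₂ * b)⁻¹ := by
  classical
  have hzc : ∀ z ∈ Z, ∀ g : H, g * z = z * g := fun z hz g => mem_center_iff.1 (hZ hz) g
  have htc' : ∀ g : H, g * t = t * g := fun g => mem_center_iff.1 htc g
  have h : EZ Q t :=
    { normal := hQ
      mem := ht
      ne := fun e => htZ (e ▸ Z.one_mem)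
      sq := ht2
      central := htc'
      comm := hcomm
      pow := hpow
      rad := by
        intro x hx hxy g
        left
        obtain ⟨z, hz, e | e⟩ := hnd x hx hxy
        · rw [e, hzc z hz]; group
        · have : g * x = x * g := by
            rw [e, ← mul_assoc, hzc z hz, mul_assoc, htc', mul_assoc]
          rw [this]; group }
  refine h.step hfp hc ?_
  -- the radical
  have h8 : Nat.card {x : Q // ∀ y ∈ Q, (x : H) * y = y * x} ≤ 8 := by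
    have h4 : Nat.card Z ≤ 4 := Nat.le_of_dvd (by norm_num) hZ4
    let f : {x : Q // ∀ y ∈ Q, (x : H) * y = y * x} → Z × Bool := fun x =>
      if hx : (x.1 : H) ∈ Z then (⟨x.1, hx⟩, true) else
        (⟨(x.1 : H) * t, by
          obtain ⟨z, hz, e | e⟩ := hnd x.1 x.1.2 x.2
          · exact absurd (e ▸ hz) hx
          · rw [e, mul_assoc, ht2, mul_one]; exact hz⟩, false)
    have hf : Function.Injective f := by
      intro x y hxy
      by_cases hx : (x.1 : H) ∈ Z <;> by_cases hy : (y.1 : H) ∈ Z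
      · simp only [f, hx, hy, dite_true, Prod.mk.injEq, Subtype.mk.injEq, and_true] at hxy
        exact Subtype.ext (Subtype.ext hxy)
      · simp [f, hx, hy] at hxy
      · simp [f, hx, hy] at hxy
      · simp only [f, hx, hy, dite_false, Prod.mk.injEq, Subtype.mk.injEq, and_true] at hxy
        exact Subtype.ext (Subtype.ext (mul_right_cancel hxy))
    have h5 := Nat.card_le_card_of_injective f hf
    rw [Nat.card_prod, Nat.card_eq_fintype_card (α := Bool), Fintype.card_bool] at h5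
    omega
  have hN : Nat.card {x : Q // ∀ y ∈ Q, (c * x * c⁻¹ * (x : H)⁻¹) * y = y * (c * x * c⁻¹ * (x : H)⁻¹)} ≤
      Nat.card {x : H // x ∈ Q ∧ ∃ z ∈ Z, c * x * c⁻¹ = x * z ∨ c * x * c⁻¹ = x * z * t} := by
    let f : {x : Q // ∀ y ∈ Q, (c * x * c⁻¹ * (x : H)⁻¹) * y = y * (c * x * c⁻¹ * (x : H)⁻¹)} →
        {x : H // x ∈ Q ∧ ∃ z ∈ Z, c * x * c⁻¹ = x * z ∨ c * x * c⁻¹ = x * z * t} := fun x =>
      ⟨(x.1 : H), x.1.2, by
        obtain ⟨z, hz, e | e⟩ := hnd _ (Q.mul_mem (hQ.conj_mem _ x.1.2 c) (Q.inv_mem x.1.2)) x.2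
        · refine ⟨z, hz, Or.inl ?_⟩
          rw [hzc z hz, ← e]; group
        · refine ⟨z, hz, Or.inr ?_⟩
          have : (x.1 : H) * z * t = z * t * x.1 := by
            rw [hzc z hz, mul_assoc, htc', mul_assoc]
          rw [this, ← e]; group⟩
    have hf : Function.Injective f := by
      intro x y hxy
      have h1 : (f x : H) = (f y : H) := by rw [hxy]
      have h1 : (x.1 : H) = (y.1 : H) := h1
      exact Subtype.ext (Subtype.ext h1)
    exact Nat.card_le_card_of_injective f hf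
  have hpos : 0 < Nat.card {x : H // x ∈ Q ∧ ∃ z ∈ Z, c * x * c⁻¹ = x * z ∨ c * x * c⁻¹ = x * z * t} := by
    have : Nonempty {x : H // x ∈ Q ∧ ∃ z ∈ Z, c * x * c⁻¹ = x * z ∨ c * x * c⁻¹ = x * z * t} :=
      ⟨⟨1, Q.one_mem, 1, Z.one_mem, Or.inl (by group)⟩⟩
    exact Nat.card_pos
  generalize Nat.card {x : H // x ∈ Q ∧ ∃ z ∈ Z, c * x * c⁻¹ = x * z ∨ c * x * c⁻¹ = x * z * t} = n at *
  generalize Nat.card {x : Q // ∀ y ∈ Q, (c * x * c⁻¹ * (x : H)⁻¹) * y = y * (c * x * c⁻¹ * (x : H)⁻¹)} = m at *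
  generalize Nat.card {x : Q // ∀ y ∈ Q, (x : H) * y = y * x} = r at *
  have h9 : r ^ 2 ≤ 64 := by
    calc r ^ 2 ≤ 8 ^ 2 := Nat.pow_le_pow_left h8 2
      _ = 64 := by norm_num
  calc m * r ^ 2 ≤ n * 64 := Nat.mul_le_mul hN h9
    _ < 4 * Nat.card Q := by omega

end Cfsg.Agent.H201.F4
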