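import Cfsg.Agent.H6.ORE.Extra

/-!
# The coset lemma for a class two group with a radical (helper201, row 2E6(2) of S2491)

`Q ⊴ H` finite, `z ∈ Q` a central involution of `H`, `Q/⟨z⟩` elementary abelian, the commutator form has
a radical `R` (= the centre of `Q`) on which `H` acts trivially.  If `V = Q/⟨z⟩` satisfies
`V = [V, ⟨a, b⟩]` and the rank of `c - 1` on `V/R` is larger than twice the dimension of `R`, then
`c ∈ Q [a, b]` is `[q₁ a, q₂ b]` with `qᵢ ∈ Q`.  (`H6.ORE.ES.step` is the case `R = 0`.)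
-/

set_option autoImplicit false

namespace Cfsg.Agent.H201.F4

universe u

open Module Cfsg.Agent.H6.ORE

theorem rank_rad {V : Type*} [AddCommGroup V] [Module (ZMod 2) V] [FiniteDimensional (ZMod 2) V]
    (ω : LinearMap.BilinForm (ZMod 2) V) (hs : ∀ x y, ω x y = ω y x)
    (α β β' γ : V ≃ₗ[ZMod 2] V) (hα : ∀ x y, ω (α x) (α y) = ω x y)
    (hβ : ∀ x y, ω (β x) (β y) = ω x y)
    (hβ' : ∀ x y, ω (β' x) (β' y) = ω x y) (hγ : ∀ x y, ω (γ x) (γ y) = ω x y)
    (e1 : ∀ x, β' (α x) = α (β x)) (e2 : ∀ x, γ (β x) = β' x)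
    (R F : Submodule (ZMod 2) V) (hR : ∀ x, x ∈ R ↔ ∀ y, ω x y = 0)
    (hRα : ∀ x ∈ R, α x = x) (hRβ : ∀ x ∈ R, β x = x) (hF : ∀ x, x ∈ F ↔ γ x + x ∈ R)
    (hφ : ∀ w, ∃ r₁ r₂, r₁ + β' r₁ + (α r₂ + γ r₂) = w)
    (hB : ∀ q₁ q₂ r₁ r₂, q₁ + β' q₁ + (α q₂ + γ q₂) = 0 → r₁ + β' r₁ + (α r₂ + γ r₂) = 0 →
      ω q₁ (α r₂) + ω (β' r₁) (γ q₂) = 0) :
    finrank (ZMod 2) V ≤ finrank (ZMod 2) F + 2 * finrank (ZMod 2) R := by
  classical
  have two : ∀ v : V, v + v = 0 := by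
    intro v
    have : (2 : ZMod 2) • v = 0 := by
      rw [show (2 : ZMod 2) = 0 from rfl, zero_smul]
    rwa [two_smul] at this
  have neg : ∀ v : V, -v = v := fun v => neg_eq_of_add_eq_zero_left (two v)
  let φ : V × V →ₗ[ZMod 2] V :=
    (LinearMap.id + β'.toLinearMap).comp (LinearMap.fst _ V V)
      + (α.toLinearMap + γ.toLinearMap).comp (LinearMap.snd _ V V)
  have hφa : ∀ r : V × V, φ r = r.1 + β' r.1 + (α r.2 + γ r.2) := fun r => rfl
  have hsurj : Function.Surjective φ := by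
    intro w
    obtain ⟨r₁, r₂, h⟩ := hφ w
    exact ⟨(r₁, r₂), h⟩
  let ψ : V →ₗ[ZMod 2] V × V :=
    LinearMap.prod (LinearMap.id + α.toLinearMap) (LinearMap.id + β.toLinearMap)
  have hψa : ∀ x, ψ x = (x + α x, x + β x) := fun x => rfl
  -- the functional of `q`
  let ω' : V →ₗ[ZMod 2] (V →ₗ[ZMod 2] ZMod 2) := ω
  let Λ : V × V →ₗ[ZMod 2] (V × V →ₗ[ZMod 2] ZMod 2) :=
    ((LinearMap.lcomp (ZMod 2) (ZMod 2) (α.toLinearMap.comp (LinearMap.snd (ZMod 2) V V))).comp ω).comp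
        (LinearMap.fst (ZMod 2) V V)
      + ((LinearMap.lcomp (ZMod 2) (ZMod 2) (β'.toLinearMap.comp (LinearMap.fst (ZMod 2) V V))).comp
          (LinearMap.comp ω' γ.toLinearMap)).comp (LinearMap.snd (ZMod 2) V V)
  have hΛ : ∀ q r : V × V, Λ q r = ω q.1 (α r.2) + ω (γ q.2) (β' r.1) := fun q r => rfl
  have hker : ∀ q ∈ LinearMap.ker φ, Λ q ∈ LinearMap.range φ.dualMap := by
    intro q hq
    rw [LinearMap.range_dualMap_eq_dualAnnihilator_ker, Submodule.mem_dualAnnihilator]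
    intro r hr
    rw [hΛ, hs (γ q.2)]
    exact hB q.1 q.2 r.1 r.2 (by simpa [hφa] using hq) (by simpa [hφa] using hr)
  -- the functionals of the form `ω x`
  let I : Submodule (ZMod 2) (Dual (ZMod 2) V) := LinearMap.range ω
  let J : Submodule (ZMod 2) (Dual (ZMod 2) (V × V)) := I.map φ.dualMap
  let N₁ : Submodule (ZMod 2) (V × V) := LinearMap.ker φ ⊓ J.comap Λ
  have hkω : LinearMap.ker ω = R := by
    ext x
    rw [LinearMap.mem_ker, hR]
    exact ⟨fun h y => by rw [h]; rfl, fun h => LinearMap.ext h⟩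
  have hI : finrank (ZMod 2) I + finrank (ZMod 2) R = finrank (ZMod 2) V := by
    have := LinearMap.finrank_range_add_finrank_ker ω
    rw [hkω] at this
    exact this
  have hdinj : Function.Injective φ.dualMap := LinearMap.dualMap_injective_of_surjective hsurj
  have hJ : finrank (ZMod 2) J = finrank (ZMod 2) I :=
    (LinearEquiv.finrank_eq (Submodule.equivMapOfInjective φ.dualMap hdinj I)).symm
  have hrd : finrank (ZMod 2) (LinearMap.range φ.dualMap) = finrank (ZMod 2) V := by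
    rw [LinearMap.finrank_range_of_inj hdinj, Subspace.dual_finrank_eq]
  have hkφ : finrank (ZMod 2) (LinearMap.ker φ) = finrank (ZMod 2) V := by
    have h2 := LinearMap.finrank_range_add_finrank_ker φ
    rw [LinearMap.range_eq_top.2 hsurj, finrank_top, Module.finrank_prod] at h2
    omega
  -- dimension of `N₁`
  have hN₁ : finrank (ZMod 2) V ≤ finrank (ZMod 2) N₁ + finrank (ZMod 2) R := by
    let Λ' : LinearMap.ker φ →ₗ[ZMod 2] Dual (ZMod 2) (V × V) := Λ.comp (LinearMap.ker φ).subtype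
    have hle : LinearMap.range Λ' ≤ LinearMap.range φ.dualMap := by
      rintro _ ⟨q, rfl⟩
      exact hker q.1 q.2
    let M := LinearMap.range Λ' ⊓ J
    have h1 : finrank (ZMod 2) (LinearMap.range Λ') ≤ finrank (ZMod 2) M + finrank (ZMod 2) R := by
      have h3 := Submodule.finrank_sup_add_finrank_inf_eq (LinearMap.range Λ') J
      have h4 : LinearMap.range Λ' ⊔ J ≤ LinearMap.range φ.dualMap :=
        sup_le hle (by rintro _ ⟨f, -, rfl⟩; exact ⟨f, rfl⟩)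
      have h5 := Submodule.finrank_mono h4
      rw [hrd] at h5
      have h6 : finrank (ZMod 2) M = finrank (ZMod 2) ↥(LinearMap.range Λ' ⊓ J) := rfl
      omega
    have h2 := LinearMap.finrank_range_add_finrank_ker Λ'
    -- `N₁` maps onto `M` with kernel containing `ker Λ'`
    let N₂ : Submodule (ZMod 2) (LinearMap.ker φ) := J.comap Λ'
    have h7 : N₂.map (LinearMap.ker φ).subtype = N₁ := by
      ext q
      constructor
      · rintro ⟨r, hr, rfl⟩
        exact ⟨r.2, hr⟩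
      · rintro ⟨h8, h9⟩
        exact ⟨⟨q, h8⟩, h9, rfl⟩
    have h8 : finrank (ZMod 2) N₁ = finrank (ZMod 2) N₂ := by
      rw [← h7]
      exact (LinearEquiv.finrank_eq (Submodule.equivMapOfInjective _ (Submodule.subtype_injective _) N₂)).symm
    have h9 := LinearMap.finrank_range_add_finrank_ker (Λ'.comp N₂.subtype)
    have h10 : LinearMap.range (Λ'.comp N₂.subtype) = M := by
      ext f
      constructor
      · rintro ⟨r, rfl⟩
        exact ⟨⟨r.1, rfl⟩, r.2⟩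
      · rintro ⟨⟨r, rfl⟩, h11⟩
        exact ⟨⟨r, h11⟩, rfl⟩
    have h11 : finrank (ZMod 2) (LinearMap.ker Λ') ≤ finrank (ZMod 2) (LinearMap.ker (Λ'.comp N₂.subtype)) := by
      have h12 : LinearMap.ker Λ' ≤ (LinearMap.ker (Λ'.comp N₂.subtype)).map N₂.subtype := by
        intro r hr
        have h13 : Λ' r = 0 := hr
        exact ⟨⟨r, by show Λ' r ∈ J; rw [h13]; exact J.zero_mem⟩, h13, rfl⟩
      exact (Submodule.finrank_mono h12).trans (Submodule.finrank_map_le _ _)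
    rw [h10] at h9
    omega
  -- key inclusion
  have key : N₁ ≤ F.map ψ ⊔ R.prod R := by
    rintro q ⟨hq, hqJ⟩
    obtain ⟨lam, ⟨x, rfl⟩, hlam⟩ := hqJ
    have h2 : ∀ r : V × V, ω q.1 (α r.2) + ω (γ q.2) (β' r.1) = ω x (φ r) := by
      intro r
      rw [← hΛ, ← hlam]
      rfl
    have nd : ∀ u v : V, (∀ w, ω u w = ω v w) → u + v ∈ R := by
      intro u v h
      rw [hR]
      intro w
      rw [map_add, LinearMap.add_apply, h w]
      have c2 : ∀ c : ZMod 2, c + c = 0 := by decide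
      exact c2 _
    have hq1 : q.1 + (x + α (γ.symm x)) ∈ R := by
      apply nd
      intro w
      obtain ⟨w', rfl⟩ := α.surjective w
      have := h2 (0, w')
      simp only [hφa, map_zero, add_zero, zero_add] at this
      rw [this]
      simp only [map_add, LinearMap.add_apply]
      congr 1
      rw [hα]
      have h6 := hγ (γ.symm x) w'
      rw [LinearEquiv.apply_symm_apply] at h6
      exact h6
    have hq2 : γ q.2 + (x + β' x) ∈ R := by
      apply nd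
      intro w
      obtain ⟨w', rfl⟩ := β'.surjective w
      have := h2 (w', 0)
      simp only [hφa, map_zero, add_zero, zero_add] at this
      rw [this]
      simp only [map_add, LinearMap.add_apply]
      rw [hβ', add_comm]
    have hRγ : ∀ v, γ v ∈ R → v ∈ R := by
      intro v hv
      rw [hR] at hv ⊢
      intro y
      rw [← hγ]; exact hv _
    have hq2' : q.2 + (γ.symm x + β x) ∈ R := by
      apply hRγ
      rw [map_add, map_add, LinearEquiv.apply_symm_apply, e2]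
      exact hq2
    have hRβ' : ∀ v ∈ R, β' v ∈ R := by
      intro v hv
      rw [hR] at hv ⊢
      intro y
      obtain ⟨y', rfl⟩ := β'.surjective y
      rw [hβ']; exact hv _
    have hq0 : q.1 + β' q.1 + (α q.2 + γ q.2) = 0 := by simpa [hφa] using hq
    -- `γ⁻¹ x + x ∈ R`
    have hfix : γ.symm x + x ∈ R := by
      have t1 := hRβ' _ hq1
      have t2 : α (q.2 + (γ.symm x + β x)) ∈ R := by rw [hRα _ hq2']; exact hq2'
      have t3 := R.add_mem (R.add_mem hq1 t1) (R.add_mem t2 hq2)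
      have t4 : α (β (γ.symm x)) + α (β x) ∈ R := by
        have e : q.1 + (x + α (γ.symm x)) + β' (q.1 + (x + α (γ.symm x)))
            + (α (q.2 + (γ.symm x + β x)) + (γ q.2 + (x + β' x)))
            = (q.1 + β' q.1 + (α q.2 + γ q.2)) + (x + x) + (α (γ.symm x) + α (γ.symm x)) + (β' x + β' x)
              + (α (β (γ.symm x)) + α (β x)) := by
          simp only [map_add, e1]
          abel
        rw [e, hq0] at t3
        simpa only [two, zero_add, add_zero] using t3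
      rw [← map_add, ← map_add] at t4
      rw [hR] at t4 ⊢
      intro y
      rw [← hβ, ← hα]
      exact t4 _
    have hxF : x ∈ F := by
      rw [hF]
      have h5 : γ (γ.symm x + x) ∈ R := by
        rw [hR] at hfix ⊢
        intro y
        obtain ⟨y', rfl⟩ := γ.surjective y
        rw [hγ]; exact hfix _
      rw [map_add, LinearEquiv.apply_symm_apply, add_comm] at h5
      exact h5
    have hxF' : γ.symm x + x ∈ R := hfix
    -- q = ψ x + (element of R × R)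
    have g1 : q.1 + (x + α x) ∈ R := by
      have h6 : α (γ.symm x + x) ∈ R := by rw [hRα _ hfix]; exact hfix
      have h7 := R.add_mem hq1 h6
      have e : q.1 + (x + α (γ.symm x)) + α (γ.symm x + x) = q.1 + (x + α x) + (α (γ.symm x) + α (γ.symm x)) := by
        rw [map_add]; abel
      rw [e, two, add_zero] at h7
      exact h7
    have g2 : q.2 + (x + β x) ∈ R := by
      have h7 := R.add_mem hq2' hfix
      have e : q.2 + (γ.symm x + β x) + (γ.symm x + x) = q.2 + (x + β x) + (γ.symm x + γ.symm x) := by abel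
      rw [e, two, add_zero] at h7
      exact h7
    have e : q = ψ x + (q.1 + (x + α x), q.2 + (x + β x)) := by
      rw [hψa, Prod.ext_iff]
      constructor
      · show q.1 = (x + α x) + (q.1 + (x + α x))
        have : (x + α x) + (q.1 + (x + α x)) = q.1 + ((x + α x) + (x + α x)) := by abel
        rw [this, two, add_zero]
      · show q.2 = (x + β x) + (q.2 + (x + β x))
        have : (x + β x) + (q.2 + (x + β x)) = q.2 + ((x + β x) + (x + β x)) := by abel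
        rw [this, two, add_zero]
    rw [e]
    exact Submodule.add_mem_sup ⟨x, hxF, rfl⟩ ⟨g1, g2⟩
  -- dimension of `F.map ψ`
  have hRF : R ≤ F := by
    intro x hx
    rw [hF]
    refine R.add_mem ?_ hx
    rw [hR] at hx ⊢
    intro y
    obtain ⟨y', rfl⟩ := γ.surjective y
    rw [hγ]; exact hx _
  have hFm : finrank (ZMod 2) (F.map ψ) + finrank (ZMod 2) R ≤ finrank (ZMod 2) F := by
    let ψ' : F →ₗ[ZMod 2] V × V := ψ.comp F.subtype
    have h1 := LinearMap.finrank_range_add_finrank_ker ψ'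
    have h2 : LinearMap.range ψ' = F.map ψ := by
      rw [LinearMap.range_comp, Submodule.range_subtype]
    have h3 : finrank (ZMod 2) R ≤ finrank (ZMod 2) (LinearMap.ker ψ') := by
      have h4 : R ≤ (LinearMap.ker ψ').map F.subtype := by
        intro x hx
        refine ⟨⟨x, hRF hx⟩, ?_, rfl⟩
        show ψ x = 0
        rw [hψa, hRα x hx, hRβ x hx, two]
        rfl
      exact (Submodule.finrank_mono h4).trans (Submodule.finrank_map_le _ _)
    rw [h2] at h1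
    omega
  have h1 := Submodule.finrank_mono key
  have h2 := Submodule.finrank_add_le_finrank_add_finrank (F.map ψ) (R.prod R)
  have h3 : finrank (ZMod 2) (R.prod R) ≤ finrank (ZMod 2) R + finrank (ZMod 2) R := by
    have h4 : R.prod R ≤ R.map (LinearMap.inl (ZMod 2) V V) ⊔ R.map (LinearMap.inr (ZMod 2) V V) := by
      rintro ⟨u, v⟩ ⟨hu, hv⟩
      have : (u, v) = LinearMap.inl (ZMod 2) V V u + LinearMap.inr (ZMod 2) V V v := by
        simp
      rw [this]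
      exact Submodule.add_mem_sup ⟨u, hu, rfl⟩ ⟨v, hv, rfl⟩
    have h5 := Submodule.finrank_mono h4
    have h6 := Submodule.finrank_add_le_finrank_add_finrank (R.map (LinearMap.inl (ZMod 2) V V))
      (R.map (LinearMap.inr (ZMod 2) V V))
    have h7 := Submodule.finrank_map_le (LinearMap.inl (ZMod 2) V V) R
    have h8 := Submodule.finrank_map_le (LinearMap.inr (ZMod 2) V V) R
    omega
  omega

/-- `Q` is a normal subgroup of class two with commutator subgroup `⟨z⟩`, `z` central in `H`; `H` acts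
trivially on the radical modulo `z` -/
structure EZ {H : Type*} [Group H] (Q : Subgroup H) (z : H) : Prop where
  normal : Q.Normal
  mem : z ∈ Q
  ne : z ≠ 1
  sq : z * z = 1
  central : ∀ h : H, h * z = z * h
  comm : ∀ x ∈ Q, ∀ y ∈ Q, x * y = y * x ∨ x * y = y * x * z
  pow : ∀ x ∈ Q, x * x = 1 ∨ x * x = z
  rad : ∀ x ∈ Q, (∀ y ∈ Q, x * y = y * x) → ∀ g : H, g * x * g⁻¹ = x ∨ g * x * g⁻¹ = x * z

variable {H : Type u} [Group H] {Q : Subgroup H} {z : H}

theorem EZ.mem_zpowers (h : EZ Q z) {x : H} : x ∈ Subgroup.zpowers z ↔ x = 1 ∨ x = z := by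
  constructor
  · rintro ⟨n, rfl⟩
    have h2 : z ^ (2 : ℤ) = 1 := by
      rw [zpow_two]; exact h.sq
    rcases Int.even_or_odd' n with ⟨k, hk | hk⟩
    · left
      show z ^ n = 1
      rw [hk, zpow_mul, h2, one_zpow]
    · right
      show z ^ n = z
      rw [hk, zpow_add, zpow_mul, h2, one_zpow, one_mul, zpow_one]
  · rintro (rfl | rfl)
    · exact Subgroup.one_mem _
    · exact Subgroup.mem_zpowers _

theorem EZ.normal_zpowers (h : EZ Q z) : (Subgroup.zpowers z).Normal := by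
  refine ⟨fun x hx g => ?_⟩
  rw [h.mem_zpowers] at hx ⊢
  rcases hx with rfl | rfl
  · left; simp
  · right; rw [h.central]; simp

/-- the coset lemma modulo `z` -/
theorem EZ.step_mod (h : EZ Q z) {a b c : H} (hfp : FPz Q z a b)
    (hc : c * (a * b * a⁻¹ * b⁻¹)⁻¹ ∈ Q) :
    ∃ q₁ ∈ Q, ∃ q₂ ∈ Q, ∃ ζ : H, (ζ = 1 ∨ ζ = z) ∧
      c * ζ = (q₁ * a) * (q₂ * b) * (q₁ * a)⁻¹ * (q₂ * b)⁻¹ := by
  have hn := h.normal
  have hz := h.normal_zpowers
  let π : H →* H ⧸ Subgroup.zpowers z := QuotientGroup.mk' _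
  have hπs : Function.Surjective π := QuotientGroup.mk'_surjective _
  have hπk : ∀ x, π x = 1 ↔ (x = 1 ∨ x = z) := by
    intro x
    rw [← h.mem_zpowers]
    exact QuotientGroup.eq_one_iff x
  have hπz : π z = 1 := (hπk z).2 (Or.inr rfl)
  have hπe : ∀ x y, π x = π y → ∃ ζ : H, (ζ = 1 ∨ ζ = z) ∧ x * ζ = y := by
    intro x y hxy
    refine ⟨x⁻¹ * y, ?_, by group⟩
    rw [← hπk, map_mul, map_inv, hxy, inv_mul_cancel]
  have hAn : (Q.map π).Normal := hn.map π hπs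
  have hAc : ∀ x ∈ Q.map π, ∀ y ∈ Q.map π, x * y = y * x := by
    rintro _ ⟨x, hx, rfl⟩ _ ⟨y, hy, rfl⟩
    rw [← map_mul, ← map_mul]
    rcases h.comm x hx y hy with e | e
    · rw [e]
    · rw [e, map_mul π (y * x) z, hπz, mul_one]
  have hAf : FP (Q.map π) (π a) (π b) := by
    rintro _ ⟨w, hw, rfl⟩
    obtain ⟨u, hu, v, hv, ζ, hζ, e⟩ := hfp w hw
    refine ⟨π u, ⟨u, hu, rfl⟩, π v, ⟨v, hv, rfl⟩, ?_⟩
    rw [e, map_mul, (hπk ζ).2 hζ, mul_one]
    simp only [map_mul, map_inv]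
  have hcA : π c * (π a * π b * (π a)⁻¹ * (π b)⁻¹)⁻¹ ∈ Q.map π := by
    refine ⟨_, hc, ?_⟩
    simp only [map_mul, map_inv]
  obtain ⟨_, ⟨q₁, h₁, rfl⟩, _, ⟨q₂, h₂, rfl⟩, e⟩ := exists_comm_of_FP hAn hAc hAf hcA
  have e' : π c = π ((q₁ * a) * (q₂ * b) * (q₁ * a)⁻¹ * (q₂ * b)⁻¹) := by
    rw [e]; simp only [map_mul, map_inv]
  obtain ⟨ζ, hζ, e''⟩ := hπe _ _ e'
  exact ⟨q₁, h₁, q₂, h₂, ζ, hζ, e''⟩

theorem EZ.conj_mem (h : EZ Q z) {x : H} (hx : x ∈ Q) (g : H) : g * x * g⁻¹ ∈ Q :=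
  h.normal.conj_mem x hx g

/-- elements of `Q` act trivially modulo `z` -/
theorem EZ.conj_eq (h : EZ Q z) {p x : H} (hp : p ∈ Q) (hx : x ∈ Q) :
    ∃ ζ : H, (ζ = 1 ∨ ζ = z) ∧ p * x * p⁻¹ = x * ζ := by
  rcases h.comm p hp x hx with e | e
  · exact ⟨1, Or.inl rfl, by rw [e]; group⟩
  · refine ⟨z, Or.inr rfl, ?_⟩
    rw [e, mul_assoc (x * p), ← h.central]; group

theorem EZ.zz (h : EZ Q z) {ζ ξ : H} (h1 : ζ = 1 ∨ ζ = z) (h2 : ξ = 1 ∨ ξ = z) :
    ζ * ξ = 1 ∨ ζ * ξ = z := by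
  rcases h1 with rfl | rfl <;> rcases h2 with rfl | rfl
  · simp
  · simp
  · simp
  · left; exact h.sq

theorem EZ.zc (h : EZ Q z) {ζ : H} (h1 : ζ = 1 ∨ ζ = z) (g : H) : g * ζ = ζ * g := by
  rcases h1 with rfl | rfl
  · simp
  · exact h.central g

theorem EZ.zi (h : EZ Q z) {ζ : H} (h1 : ζ = 1 ∨ ζ = z) : ζ⁻¹ = ζ := by
  rcases h1 with rfl | rfl
  · simp
  · exact inv_eq_of_mul_eq_one_right h.sq

theorem EZ.fpz_mul_left (h : EZ Q z) {a b p₁ p₂ : H} (hfp : FPz Q z a b) (h₁ : p₁ ∈ Q) (h₂ : p₂ ∈ Q) :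
    FPz Q z (p₁ * a) (p₂ * b) := by
  intro w hw
  obtain ⟨u, hu, v, hv, ζ, hζ, e⟩ := hfp w hw
  obtain ⟨ξ, hξ, e₁⟩ := h.conj_eq h₂ (h.conj_mem hu b)
  obtain ⟨η, hη, e₂⟩ := h.conj_eq h₁ (h.conj_mem hv a)
  refine ⟨u, hu, v, hv, ξ * η * ζ, h.zz (h.zz hξ hη) hζ, ?_⟩
  have e₁' : p₂ * b * u * (p₂ * b)⁻¹ = b * u * b⁻¹ * ξ := by rw [← e₁]; group
  have e₂' : p₁ * a * v * (p₁ * a)⁻¹ = a * v * a⁻¹ * η := by rw [← e₂]; group
  rw [e₁', e₂', mul_inv_rev (b * u * b⁻¹) ξ, mul_inv_rev (a * v * a⁻¹) η, h.zi hξ, h.zi hη, e]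
  have c₁ := h.zc hξ
  have c₂ := h.zc hη
  calc u * (b * u * b⁻¹)⁻¹ * (v * (a * v * a⁻¹)⁻¹) * ζ
      = u * (b * u * b⁻¹)⁻¹ * (v * (a * v * a⁻¹)⁻¹) * (ξ * ξ⁻¹) * (η * η⁻¹) * ζ := by group
    _ = u * (b * u * b⁻¹)⁻¹ * (v * (a * v * a⁻¹)⁻¹) * (ξ * ξ) * (η * η) * ζ := by
        rw [h.zi hξ, h.zi hη]
    _ = u * (b * u * b⁻¹)⁻¹ * ((v * (a * v * a⁻¹)⁻¹) * ξ) * (ξ * η) * (η * ζ) := by group
    _ = u * (b * u * b⁻¹)⁻¹ * (ξ * (v * (a * v * a⁻¹)⁻¹)) * (η * ξ) * (η * ζ) := by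
        rw [c₁ (v * (a * v * a⁻¹)⁻¹), c₁ η]
    _ = u * ((b * u * b⁻¹)⁻¹ * ξ) * (v * ((a * v * a⁻¹)⁻¹ * η)) * (ξ * η * ζ) := by group
    _ = u * (ξ * (b * u * b⁻¹)⁻¹) * (v * (η * (a * v * a⁻¹)⁻¹)) * (ξ * η * ζ) := by
        rw [c₁ (b * u * b⁻¹)⁻¹, c₂ (a * v * a⁻¹)⁻¹]

theorem EZ.exists_vdata (h : EZ Q z) [Finite Q] : Nonempty (VData Q z) := by
  classical
  have hn := h.normal
  let N : Subgroup Q := (Subgroup.zpowers z).subgroupOf Q
  have hN : ∀ x : Q, x ∈ N ↔ ((x : H) = 1 ∨ (x : H) = z) := by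
    intro x
    rw [Subgroup.mem_subgroupOf, h.mem_zpowers]
  have hNn : N.Normal := by
    have := h.normal_zpowers
    exact Subgroup.normal_subgroupOf
  let _ : CommGroup (Q ⧸ N) := { (inferInstance : Group (Q ⧸ N)) with
    mul_comm := by
      intro u v
      induction u using QuotientGroup.induction_on with | _ x => ?_
      induction v using QuotientGroup.induction_on with | _ y => ?_
      rw [← QuotientGroup.mk_mul, ← QuotientGroup.mk_mul, QuotientGroup.eq, hN]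
      simp only [Subgroup.coe_mul, Subgroup.coe_inv]
      rcases h.comm x x.2 y y.2 with e | e
      · left; rw [e]; group
      · right
        rw [e]
        have : ((y : H) * x * z)⁻¹ * (y * x) = z⁻¹ := by group
        rw [this]; exact h.zi (Or.inr rfl) }
  let V := Additive (Q ⧸ N)
  let mk : Q → V := fun x => Additive.ofMul (QuotientGroup.mk x)
  have hsurj : Function.Surjective mk := by
    intro v
    obtain ⟨x, hx⟩ := QuotientGroup.mk_surjective (Additive.toMul v)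
    exact ⟨x, by show Additive.ofMul _ = v; rw [hx]; rfl⟩
  have mk_mul : ∀ x y, mk (x * y) = mk x + mk y := fun x y => rfl
  have mk_eq : ∀ x y : Q, mk x = mk y ↔ ((y : H) = x ∨ (y : H) = x * z) := by
    intro x y
    have : mk x = mk y ↔ (QuotientGroup.mk x : Q ⧸ N) = QuotientGroup.mk y := Iff.rfl
    rw [this, QuotientGroup.eq, hN]
    simp only [Subgroup.coe_mul, Subgroup.coe_inv]
    constructor
    · rintro (e | e)
      · left; exact (inv_mul_eq_one.1 e).symm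
      · right; rw [← e]; group
    · rintro (e | e)
      · left; rw [e]; group
      · right; rw [e]; group
  have two : ∀ v : V, 2 • v = 0 := by
    intro v
    obtain ⟨x, rfl⟩ := hsurj v
    rw [two_nsmul, ← mk_mul]
    have h1 : mk (1 : Q) = 0 := rfl
    rw [← h1, mk_eq]
    simp only [Subgroup.coe_mul, Subgroup.coe_one]
    rcases h.pow x x.2 with e | e
    · left; exact e.symm
    · right; rw [e]; exact h.sq.symm
  let _ : Module (ZMod 2) V := AddCommGroup.zmodModule two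
  -- the form
  let f : Q → Q → ZMod 2 := fun x y => if (x : H) * y = y * x then 0 else 1
  have hf0 : ∀ x y : Q, f x y = 0 ↔ (x : H) * y = y * x := by
    intro x y
    by_cases e : (x : H) * y = y * x <;> simp [f, e]
  have hf1 : ∀ x y : Q, f x y = 1 ↔ (x : H) * y = y * x * z := by
    intro x y
    rcases h.comm x x.2 y y.2 with e | e
    · have : ¬ ((x : H) * y = y * x * z) := by
        rw [e]; intro h'; exact h.ne (by simpa using h'.symm)
      simp [f, e]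
      intro h'
      exact h.ne h'
    · have : ¬ ((x : H) * y = y * x) := by
        rw [e]; intro h'; exact h.ne (by simpa using h')
      simp [f, e]
      exact h.ne
  have fl : ∀ x x' y : Q, f (x * x') y = f x y + f x' y := by
    intro x x' y
    rcases h.comm x x.2 y y.2 with e | e <;> rcases h.comm x' x'.2 y y.2 with e' | e'
    · have e'' : ((x * x' : Q) : H) * y = y * (x * x' : Q) := by
        rw [Subgroup.coe_mul, mul_assoc, e', ← mul_assoc, e, mul_assoc]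
      rw [(hf0 _ _).2 e'', (hf0 _ _).2 e, (hf0 _ _).2 e', add_zero]
    · have e'' : ((x * x' : Q) : H) * y = y * (x * x' : Q) * z := by
        rw [Subgroup.coe_mul, mul_assoc, e', ← mul_assoc, ← mul_assoc, e]; group
      rw [(hf1 _ _).2 e'', (hf0 _ _).2 e, (hf1 _ _).2 e', zero_add]
    · have e'' : ((x * x' : Q) : H) * y = y * (x * x' : Q) * z := by
        rw [Subgroup.coe_mul, mul_assoc, e', ← mul_assoc, e, mul_assoc _ z, ← h.central]; group
      rw [(hf1 _ _).2 e'', (hf1 _ _).2 e, (hf0 _ _).2 e', add_zero]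
    · have e'' : ((x * x' : Q) : H) * y = y * (x * x' : Q) := by
        have : (x : H) * x' * y = y * (x * x') * (z * z) := by
          calc (x : H) * x' * y = x * (x' * y) := by group
            _ = (x * y) * (x' * z) := by rw [e']; group
            _ = y * x * (z * x') * z := by rw [e]; group
            _ = y * x * (x' * z) * z := by rw [h.central x']
            _ = _ := by group
        rw [Subgroup.coe_mul, this, h.sq, mul_one]
      rw [(hf0 _ _).2 e'', (hf1 _ _).2 e, (hf1 _ _).2 e']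
      rfl
  have fs : ∀ x y : Q, f x y = f y x := by
    intro x y
    by_cases e : (x : H) * y = y * x
    · rw [(hf0 x y).2 e, (hf0 y x).2 e.symm]
    · have e' : ¬ ((y : H) * x = x * y) := fun h' => e h'.symm
      simp [f, e, e']
  have fr : ∀ x y y' : Q, f x (y * y') = f x y + f x y' := by
    intro x y y'
    rw [fs, fl, fs y, fs y']
  have fN : ∀ n ∈ N, ∀ y : Q, f n y = 0 := by
    intro n hn y
    rw [hf0]
    rcases (hN n).1 hn with e | e
    · rw [e]; simp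
    · rw [e, h.central]
  let Fq : Q → Q →* Multiplicative (ZMod 2) := fun x =>
    { toFun := fun y => Multiplicative.ofAdd (f x y)
      map_one' := by
        show Multiplicative.ofAdd (f x 1) = Multiplicative.ofAdd 0
        rw [fs, fN 1 N.one_mem]
      map_mul' := fun y y' => by
        show Multiplicative.ofAdd (f x (y * y')) = Multiplicative.ofAdd (f x y + f x y')
        rw [fr] }
  have hFqN : ∀ x, N ≤ (Fq x).ker := by
    intro x n hn
    rw [MonoidHom.mem_ker]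
    show Multiplicative.ofAdd (f x n) = Multiplicative.ofAdd 0
    rw [fs, fN n hn]
  let Fq' : Q → (Q ⧸ N) →* Multiplicative (ZMod 2) := fun x => QuotientGroup.lift N (Fq x) (hFqN x)
  let FF : Q →* ((Q ⧸ N) →* Multiplicative (ZMod 2)) :=
    { toFun := Fq'
      map_one' := by
        apply QuotientGroup.monoidHom_ext
        ext y
        show Multiplicative.ofAdd (f 1 y) = Multiplicative.ofAdd 0
        rw [fN 1 N.one_mem]
      map_mul' := fun x x' => by
        apply QuotientGroup.monoidHom_ext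
        ext y
        show Multiplicative.ofAdd (f (x * x') y) = Multiplicative.ofAdd (f x y + f x' y)
        rw [fl] }
  have hFFN : N ≤ FF.ker := by
    intro n hn
    rw [MonoidHom.mem_ker]
    apply QuotientGroup.monoidHom_ext
    ext y
    show Multiplicative.ofAdd (f n y) = Multiplicative.ofAdd 0
    rw [fN n hn]
  let FF' : (Q ⧸ N) →* ((Q ⧸ N) →* Multiplicative (ZMod 2)) := QuotientGroup.lift N FF hFFN
  let w : V → V → ZMod 2 := fun v v' => Multiplicative.toAdd (FF' (Additive.toMul v) (Additive.toMul v'))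
  have hw : ∀ x y, w (mk x) (mk y) = f x y := fun x y => rfl
  have c2 : ∀ c : ZMod 2, c = 0 ∨ c = 1 := by decide
  have wl : ∀ u v v', w (u + v) v' = w u v' + w v v' := by
    intro u v v'
    obtain ⟨x, rfl⟩ := hsurj u
    obtain ⟨y, rfl⟩ := hsurj v
    obtain ⟨y', rfl⟩ := hsurj v'
    rw [← mk_mul, hw, hw, hw, fl]
  have wr : ∀ u v v', w u (v + v') = w u v + w u v' := by
    intro u v v'
    obtain ⟨x, rfl⟩ := hsurj u
    obtain ⟨y, rfl⟩ := hsurj v
    obtain ⟨y', rfl⟩ := hsurj v'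
    rw [← mk_mul, hw, hw, hw, fr]
  have w0 : ∀ v, w 0 v = 0 := by
    intro v
    have := wl 0 0 v
    rw [add_zero] at this
    have h2 : w 0 v + 0 = w 0 v + w 0 v := by rw [add_zero]; exact this
    exact (add_left_cancel h2).symm
  have w0' : ∀ v, w v 0 = 0 := by
    intro v
    have := wr v 0 0
    rw [add_zero] at this
    have h2 : w v 0 + 0 = w v 0 + w v 0 := by rw [add_zero]; exact this
    exact (add_left_cancel h2).symm
  let ω : LinearMap.BilinForm (ZMod 2) V := LinearMap.mk₂ (ZMod 2) w wl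
    (by
      intro c u v
      rcases c2 c with rfl | rfl
      · rw [zero_smul, zero_smul, w0]
      · rw [one_smul, one_smul])
    wr
    (by
      intro c u v
      rcases c2 c with rfl | rfl
      · rw [zero_smul, zero_smul, w0']
      · rw [one_smul, one_smul])
  -- the action
  have hmap : ∀ g : H, N.map (MulAut.conjNormal g : Q ≃* Q).toMonoidHom = N := by
    intro g
    have hz1 : ∀ x : H, (x = 1 ∨ x = z) → g * x * g⁻¹ = x := by
      intro x hx
      rw [h.zc hx g]; group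
    apply le_antisymm
    · rintro _ ⟨x, hx, rfl⟩
      have hx' := (hN x).1 hx
      rw [hN]
      have : (((MulAut.conjNormal g : Q ≃* Q).toMonoidHom x : Q) : H) = x := by
        show ((MulAut.conjNormal g x : Q) : H) = x
        rw [MulAut.conjNormal_apply]; exact hz1 _ hx'
      rw [this]; exact hx'
    · intro x hx
      have hx' := (hN x).1 hx
      refine ⟨x, hx, ?_⟩
      apply Subtype.ext
      show ((MulAut.conjNormal g x : Q) : H) = x
      rw [MulAut.conjNormal_apply]; exact hz1 _ hx'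
  let Lm : H → (Q ⧸ N) ≃* (Q ⧸ N) := fun g => QuotientGroup.congr N N (MulAut.conjNormal g) (hmap g)
  let La : H → V ≃+ V := fun g => MulEquiv.toAdditive (Lm g)
  let L : H → V ≃ₗ[ZMod 2] V := fun g => (La g).toLinearEquiv (fun c x => ZMod.map_smul (La g) c x)
  exact ⟨{
    V := V
    cls := mk
    surj := hsurj
    cls_mul := mk_mul
    cls_eq := mk_eq
    ω := ω
    ω_cls := fun x y => hf0 x y
    L := L
    L_cls := by
      intro g x y hy
      have : y = MulAut.conjNormal g x := Subtype.ext (by rw [hy, MulAut.conjNormal_apply])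
      rw [this]
      rfl
    fin := inferInstanceAs (Finite (Q ⧸ N)) }⟩


/-- **the coset lemma with a radical** -/
theorem EZ.step (h : EZ Q z) [Finite Q] {a b c : H} (hfp : FPz Q z a b)
    (hc : c * (a * b * a⁻¹ * b⁻¹)⁻¹ ∈ Q)
    (hact : Nat.card {x : Q // ∀ y ∈ Q, (c * x * c⁻¹ * (x : H)⁻¹) * y = y * (c * x * c⁻¹ * (x : H)⁻¹)} *
      Nat.card {x : Q // ∀ y ∈ Q, (x : H) * y = y * x} ^ 2 < 4 * Nat.card Q) :
    ∃ q₁ ∈ Q, ∃ q₂ ∈ Q, c = (q₁ * a) * (q₂ * b) * (q₁ * a)⁻¹ * (q₂ * b)⁻¹ := by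
  classical
  obtain ⟨p₁, hp₁, p₂, hp₂, ζ, hζ, e⟩ := h.step_mod hfp hc
  rcases hζ with rfl | rfl
  · exact ⟨p₁, hp₁, p₂, hp₂, by rw [← e, mul_one]⟩
  by_contra hno
  push Not at hno
  have hfp' : FPz Q ζ (p₁ * a) (p₂ * b) := EZ.fpz_mul_left h hfp hp₁ hp₂
  obtain ⟨a₁, ha₁⟩ : ∃ a₁, a₁ = p₁ * a := ⟨_, rfl⟩
  obtain ⟨b₁, hb₁⟩ : ∃ b₁, b₁ = p₂ * b := ⟨_, rfl⟩
  have hno' : ∀ q₁ ∈ Q, ∀ q₂ ∈ Q,
      (q₁ * a₁) * (q₂ * b₁) * (q₁ * a₁)⁻¹ * (q₂ * b₁)⁻¹ ≠ c := by
    intro q₁ h₁ q₂ h₂ e'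
    refine hno (q₁ * p₁) (Q.mul_mem h₁ hp₁) (q₂ * p₂) (Q.mul_mem h₂ hp₂) ?_
    rw [← e', ha₁, hb₁]; group
  rw [← ha₁, ← hb₁] at e hfp'
  obtain ⟨c₁, hc₁⟩ : ∃ c₁, c₁ = a₁ * b₁ * a₁⁻¹ * b₁⁻¹ := ⟨_, rfl⟩
  obtain ⟨g, hg⟩ : ∃ g, g = a₁ * b₁ * a₁⁻¹ := ⟨_, rfl⟩
  rw [← hc₁] at e
  -- the function Φ
  let Φ : Q → Q → H := fun r₁ r₂ => r₁ * (a₁ * r₂ * a₁⁻¹) * (g * r₁ * g⁻¹)⁻¹ * (c₁ * r₂ * c₁⁻¹)⁻¹
  have hΦ : ∀ r₁ r₂ : Q, (r₁ * a₁) * (r₂ * b₁) * (r₁ * a₁)⁻¹ * (r₂ * b₁)⁻¹ = Φ r₁ r₂ * c₁ := by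
    intro r₁ r₂
    show _ = r₁ * (a₁ * r₂ * a₁⁻¹) * (g * r₁ * g⁻¹)⁻¹ * (c₁ * r₂ * c₁⁻¹)⁻¹ * c₁
    rw [hc₁, hg]; group
  have hΦ1 : ∀ r₁ r₂ : Q, (Φ r₁ r₂ = 1 ∨ Φ r₁ r₂ = ζ) → Φ r₁ r₂ = 1 := by
    intro r₁ r₂ h'
    rcases h' with h' | h'
    · exact h'
    · exfalso
      refine hno' r₁ r₁.2 r₂ r₂.2 ?_
      rw [hΦ, h', ← e, h.central c, ← mul_assoc, h.sq, one_mul]
  obtain ⟨D⟩ := h.exists_vdata
  let _ := D.acg
  let _ := D.mod
  have hfin := D.fin
  have : FiniteDimensional (ZMod 2) D.V := Module.Finite.of_finite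
  -- conjugation inside Q
  let K : H → Q → Q := fun g x => ⟨g * x * g⁻¹, h.conj_mem x.2 g⟩
  have hL : ∀ g x, D.L g (D.cls x) = D.cls (K g x) := fun g x => D.L_cls g x _ rfl
  have c2 : ∀ c : ZMod 2, c = 0 ∨ c = 1 := by decide
  have ceq : ∀ s t : ZMod 2, (s = 0 ↔ t = 0) → s = t := by decide
  have hs : ∀ x y, D.ω x y = D.ω y x := by
    intro u v
    obtain ⟨x, rfl⟩ := D.surj u
    obtain ⟨y, rfl⟩ := D.surj v
    apply ceq
    rw [D.ω_cls, D.ω_cls]
    exact eq_comm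
  have hcls0 : D.cls 1 = 0 := by
    have := D.cls_mul 1 1
    rw [mul_one] at this
    have h2 : D.cls 1 + 0 = D.cls 1 + D.cls 1 := by rw [add_zero]; exact this
    exact (add_left_cancel h2).symm
  have hiso : ∀ g x y, D.ω (D.L g x) (D.L g y) = D.ω x y := by
    intro g u v
    obtain ⟨x, rfl⟩ := D.surj u
    obtain ⟨y, rfl⟩ := D.surj v
    apply ceq
    rw [hL, hL, D.ω_cls, D.ω_cls]
    constructor
    · intro e'
      have e'' : g * ((x : H) * y) * g⁻¹ = g * (y * x) * g⁻¹ := by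
        calc g * ((x : H) * y) * g⁻¹ = (K g x : H) * (K g y : H) := by
              show _ = (g * x * g⁻¹) * (g * y * g⁻¹); group
          _ = (K g y : H) * (K g x : H) := e'
          _ = _ := by show (g * y * g⁻¹) * (g * x * g⁻¹) = _; group
      exact mul_left_cancel (mul_right_cancel e'')
    · intro e'
      show (g * x * g⁻¹) * (g * y * g⁻¹) = (g * y * g⁻¹) * (g * x * g⁻¹)
      calc (g * (x : H) * g⁻¹) * (g * y * g⁻¹) = g * (x * y) * g⁻¹ := by group
        _ = g * (y * x) * g⁻¹ := by rw [e']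
        _ = _ := by group
  have hLm : ∀ g k l, (∀ x : H, g * (k * x * k⁻¹) * g⁻¹ = l * x * l⁻¹) →
      ∀ v, D.L g (D.L k v) = D.L l v := by
    intro g k l hk v
    obtain ⟨x, rfl⟩ := D.surj v
    rw [hL, hL, hL]
    congr 1
    exact Subtype.ext (hk x)
  have hsum : ∀ r₁ r₂ : Q, ∀ h' : Φ r₁ r₂ ∈ Q,
      D.cls ⟨Φ r₁ r₂, h'⟩ = D.cls r₁ + D.L g (D.cls r₁)
        + (D.L a₁ (D.cls r₂) + D.L c₁ (D.cls r₂)) := by
    intro r₁ r₂ h'
    have hinv : ∀ x : Q, D.cls x⁻¹ = D.cls x := by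
      intro x
      rw [D.cls_eq]
      rcases h.pow x x.2 with e' | e'
      · left
        exact (inv_eq_of_mul_eq_one_right e').symm
      · right
        have : (x : H)⁻¹ * x * x = (x : H)⁻¹ * ζ := by rw [mul_assoc, e']
        simpa using this
    have e1 : (⟨Φ r₁ r₂, h'⟩ : Q) = r₁ * K a₁ r₂ * (K g r₁)⁻¹ * (K c₁ r₂)⁻¹ := Subtype.ext rfl
    rw [e1, D.cls_mul, D.cls_mul, D.cls_mul, hinv, hinv, hL, hL, hL]
    abel
  have hmem : ∀ r₁ r₂ : Q, Φ r₁ r₂ ∈ Q := by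
    intro r₁ r₂
    exact (r₁ * K a₁ r₂ * (K g r₁)⁻¹ * (K c₁ r₂)⁻¹).2
  have hone : ∀ r₁ r₂ : Q, D.cls r₁ + D.L g (D.cls r₁)
        + (D.L a₁ (D.cls r₂) + D.L c₁ (D.cls r₂)) = 0 → Φ r₁ r₂ = 1 := by
    intro r₁ r₂ h0
    apply hΦ1
    rw [← hsum r₁ r₂ (hmem r₁ r₂)] at h0
    have h00 : D.cls 1 = 0 := by
      have := D.cls_mul 1 1
      rw [mul_one] at this
      have h2 : D.cls 1 + 0 = D.cls 1 + D.cls 1 := by rw [add_zero]; exact this
      exact (add_left_cancel h2).symm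
    rw [← h00, eq_comm, D.cls_eq] at h0
    simpa using h0
  let R : Submodule (ZMod 2) D.V := LinearMap.ker D.ω
  have hRm : ∀ x, x ∈ R ↔ ∀ y, D.ω x y = 0 := by
    intro x
    rw [LinearMap.mem_ker]
    exact ⟨fun h y => by rw [h]; rfl, fun h => LinearMap.ext h⟩
  let F : Submodule (ZMod 2) D.V := R.comap ((D.L c₁).toLinearMap + LinearMap.id)
  have hRc : ∀ x : Q, D.cls x ∈ R ↔ ∀ y ∈ Q, (x : H) * y = y * x := by
    intro x
    rw [hRm]
    constructor
    · intro h1 y hy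
      have := h1 (D.cls ⟨y, hy⟩)
      rwa [D.ω_cls] at this
    · intro h1 v
      obtain ⟨y, rfl⟩ := D.surj v
      rw [D.ω_cls]; exact h1 y y.2
  have hRtriv : ∀ g : H, ∀ v ∈ R, D.L g v = v := by
    intro g v hv
    obtain ⟨x, rfl⟩ := D.surj v
    rw [hL, eq_comm, D.cls_eq]
    exact h.rad x x.2 ((hRc x).1 hv) g
  have hγ := rank_rad D.ω hs (D.L a₁) (D.L b₁) (D.L g) (D.L c₁) (hiso a₁) (hiso b₁) (hiso g) (hiso c₁)
    (fun x => (hLm g a₁ (a₁ * b₁) (fun x => by rw [hg]; group) x).trans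
      (hLm a₁ b₁ (a₁ * b₁) (fun x => by group) x).symm)
    (fun x => hLm c₁ b₁ g (fun x => by rw [hc₁, hg]; group) x)
    R F hRm (hRtriv a₁) (hRtriv b₁) (fun x => Iff.rfl)
    (by
      intro w
      obtain ⟨y, rfl⟩ := D.surj w
      obtain ⟨q₁, h₁, q₂, h₂, ξ, hξ, e'⟩ := h.step_mod (a := a₁) (b := b₁) (c := y * c₁) hfp'
        (by rw [← hc₁, mul_assoc, mul_inv_cancel, mul_one]; exact y.2)
      refine ⟨D.cls ⟨q₁, h₁⟩, D.cls ⟨q₂, h₂⟩, ?_⟩
      rw [← hsum ⟨q₁, h₁⟩ ⟨q₂, h₂⟩ (hmem _ _)]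
      have e'' : Φ ⟨q₁, h₁⟩ ⟨q₂, h₂⟩ * c₁ = y * ξ * c₁ := by
        rw [← hΦ]
        show q₁ * a₁ * (q₂ * b₁) * (q₁ * a₁)⁻¹ * (q₂ * b₁)⁻¹ = _
        rw [← e', mul_assoc, mul_assoc, h.zc hξ c₁]
      have e3 : Φ ⟨q₁, h₁⟩ ⟨q₂, h₂⟩ = y * ξ := mul_right_cancel e''
      rw [eq_comm, D.cls_eq]
      show Φ ⟨q₁, h₁⟩ ⟨q₂, h₂⟩ = y ∨ Φ ⟨q₁, h₁⟩ ⟨q₂, h₂⟩ = y * ζ
      rw [e3]
      rcases hξ with rfl | rfl
      · left; simp
      · right; rfl)
    (by
      intro u₁ u₂ v₁ v₂ hu hv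
      obtain ⟨r₁, rfl⟩ := D.surj u₁
      obtain ⟨r₂, rfl⟩ := D.surj u₂
      obtain ⟨q₁, rfl⟩ := D.surj v₁
      obtain ⟨q₂, rfl⟩ := D.surj v₂
      have o1 := hone r₁ r₂ hu
      have o2 := hone q₁ q₂ hv
      have o3 : Φ (q₁ * r₁) (q₂ * r₂) = 1 := by
        apply hone
        rw [D.cls_mul, D.cls_mul]
        simp only [map_add]
        have : (D.cls q₁ + D.cls r₁) + (D.L g (D.cls q₁) + D.L g (D.cls r₁))
            + (D.L a₁ (D.cls q₂) + D.L a₁ (D.cls r₂) + (D.L c₁ (D.cls q₂) + D.L c₁ (D.cls r₂)))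
            = (D.cls q₁ + D.L g (D.cls q₁) + (D.L a₁ (D.cls q₂) + D.L c₁ (D.cls q₂)))
            + (D.cls r₁ + D.L g (D.cls r₁) + (D.L a₁ (D.cls r₂) + D.L c₁ (D.cls r₂))) := by abel
        rw [this, hu, hv, add_zero]
      -- x = q, y = r
      obtain ⟨x₁, hx₁⟩ : ∃ t, t = (q₁ : H) := ⟨_, rfl⟩
      obtain ⟨x₂, hx₂⟩ : ∃ t, t = a₁ * (q₂ : H) * a₁⁻¹ := ⟨_, rfl⟩
      obtain ⟨x₃, hx₃⟩ : ∃ t, t = g * (q₁ : H) * g⁻¹ := ⟨_, rfl⟩
      obtain ⟨x₄, hx₄⟩ : ∃ t, t = c₁ * (q₂ : H) * c₁⁻¹ := ⟨_, rfl⟩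
      obtain ⟨y₁, hy₁⟩ : ∃ t, t = (r₁ : H) := ⟨_, rfl⟩
      obtain ⟨y₂, hy₂⟩ : ∃ t, t = a₁ * (r₂ : H) * a₁⁻¹ := ⟨_, rfl⟩
      obtain ⟨y₃, hy₃⟩ : ∃ t, t = g * (r₁ : H) * g⁻¹ := ⟨_, rfl⟩
      obtain ⟨y₄, hy₄⟩ : ∃ t, t = c₁ * (r₂ : H) * c₁⁻¹ := ⟨_, rfl⟩
      have p1 : y₁ * y₂ = y₄ * y₃ := by
        have : y₁ * y₂ * y₃⁻¹ * y₄⁻¹ = 1 := by rw [hy₁, hy₂, hy₃, hy₄]; exact o1
        calc y₁ * y₂ = (y₁ * y₂ * y₃⁻¹ * y₄⁻¹) * y₄ * y₃ := by group
          _ = _ := by rw [this, one_mul]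
      have p2 : x₁ * x₂ = x₄ * x₃ := by
        have : x₁ * x₂ * x₃⁻¹ * x₄⁻¹ = 1 := by rw [hx₁, hx₂, hx₃, hx₄]; exact o2
        calc x₁ * x₂ = (x₁ * x₂ * x₃⁻¹ * x₄⁻¹) * x₄ * x₃ := by group
          _ = _ := by rw [this, one_mul]
      have p3 : x₁ * y₁ * (x₂ * y₂) = (x₄ * y₄) * (x₃ * y₃) := by
        have : x₁ * y₁ * (x₂ * y₂) * (x₃ * y₃)⁻¹ * (x₄ * y₄)⁻¹ = 1 := by
          have o4 : ((q₁ * r₁ : Q) : H) * (a₁ * ((q₂ * r₂ : Q) : H) * a₁⁻¹)
            * (g * ((q₁ * r₁ : Q) : H) * g⁻¹)⁻¹ * (c₁ * ((q₂ * r₂ : Q) : H) * c₁⁻¹)⁻¹ = 1 := o3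
          rw [Subgroup.coe_mul, Subgroup.coe_mul] at o4
          rw [hx₁, hx₂, hx₃, hx₄, hy₁, hy₂, hy₃, hy₄, ← o4]; group
        calc x₁ * y₁ * (x₂ * y₂)
            = (x₁ * y₁ * (x₂ * y₂) * (x₃ * y₃)⁻¹ * (x₄ * y₄)⁻¹) * (x₄ * y₄) * (x₃ * y₃) := by group
          _ = _ := by rw [this, one_mul]
      have m1 : y₁ ∈ Q := by rw [hy₁]; exact r₁.2
      have m2 : x₂ ∈ Q := by rw [hx₂]; exact h.conj_mem q₂.2 a₁
      have m3 : y₄ ∈ Q := by rw [hy₄]; exact h.conj_mem r₂.2 c₁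
      have m4 : x₃ ∈ Q := by rw [hx₃]; exact h.conj_mem q₁.2 g
      -- y₁ x₂ vs y₄ x₃
      have cc : (y₁ * x₂ = x₂ * y₁) ↔ (y₄ * x₃ = x₃ * y₄) := by
        constructor
        · intro e1
          have : x₁ * (y₁ * x₂) * y₂ = x₄ * (y₄ * x₃) * y₃ := by
            calc x₁ * (y₁ * x₂) * y₂ = x₁ * y₁ * (x₂ * y₂) := by group
              _ = (x₄ * y₄) * (x₃ * y₃) := p3
              _ = _ := by group
          have e2 : x₄ * (y₄ * x₃) * y₃ = x₄ * (x₃ * y₄) * y₃ := by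
            rw [← this, e1]
            calc x₁ * (x₂ * y₁) * y₂ = (x₁ * x₂) * (y₁ * y₂) := by group
              _ = (x₄ * x₃) * (y₄ * y₃) := by rw [p1, p2]
              _ = _ := by group
          exact mul_left_cancel (mul_right_cancel e2)
        · intro e1
          have : x₁ * (y₁ * x₂) * y₂ = x₄ * (y₄ * x₃) * y₃ := by
            calc x₁ * (y₁ * x₂) * y₂ = x₁ * y₁ * (x₂ * y₂) := by group
              _ = (x₄ * y₄) * (x₃ * y₃) := p3
              _ = _ := by group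
          have e2 : x₁ * (y₁ * x₂) * y₂ = x₁ * (x₂ * y₁) * y₂ := by
            rw [this, e1]
            calc x₄ * (x₃ * y₄) * y₃ = (x₄ * x₃) * (y₄ * y₃) := by group
              _ = (x₁ * x₂) * (y₁ * y₂) := by rw [p1, p2]
              _ = _ := by group
          exact mul_left_cancel (mul_right_cancel e2)
      have e5 : D.ω (D.cls r₁) (D.L a₁ (D.cls q₂)) = D.ω (D.L g (D.cls q₁)) (D.L c₁ (D.cls r₂)) := by
        apply ceq
        rw [hL, hL, hL, D.ω_cls, D.ω_cls]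
        have t1 : ((K a₁ q₂ : Q) : H) = x₂ := hx₂.symm
        have t2 : ((K g q₁ : Q) : H) = x₃ := hx₃.symm
        have t3 : ((K c₁ r₂ : Q) : H) = y₄ := hy₄.symm
        rw [t1, t2, t3, ← hy₁, cc]
        exact eq_comm
      rw [e5]
      rcases c2 (D.ω (D.L g (D.cls q₁)) (D.L c₁ (D.cls r₂))) with h0 | h0
      · rw [h0]; rfl
      · rw [h0]; rfl)
  -- conclusion
  let f : Q →* Multiplicative D.V :=
    { toFun := fun x => Multiplicative.ofAdd (D.cls x)
      map_one' := by rw [hcls0]; rfl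
      map_mul' := fun x y => by rw [D.cls_mul]; rfl }
  have hfs : Function.Surjective f := by
    intro v
    obtain ⟨x, hx⟩ := D.surj (Multiplicative.toAdd v)
    exact ⟨x, by show Multiplicative.ofAdd (D.cls x) = v; rw [hx]; rfl⟩
  have hfk : ∀ x : Q, x ∈ f.ker ↔ ((x : H) = 1 ∨ (x : H) = ζ) := by
    intro x
    rw [MonoidHom.mem_ker]
    have e1 : f x = 1 ↔ D.cls 1 = D.cls x := by
      rw [hcls0, eq_comm]
      constructor
      · intro h1; exact congrArg Multiplicative.toAdd h1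
      · intro h1; exact congrArg Multiplicative.ofAdd h1
    rw [e1, D.cls_eq]
    simp
  have hfk2 : Nat.card f.ker = 2 := by
    have hne : (1 : Q) ≠ ⟨ζ, h.mem⟩ := by
      intro e'
      exact h.ne (congrArg Subtype.val e').symm
    have e1 : (f.ker : Set Q) = {1, ⟨ζ, h.mem⟩} := by
      ext x
      rw [SetLike.mem_coe, hfk, Set.mem_insert_iff, Set.mem_singleton_iff, Subtype.ext_iff, Subtype.ext_iff]
      rfl
    have e2 : Nat.card f.ker = Set.ncard (f.ker : Set Q) := rfl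
    rw [e2, e1, Set.ncard_pair hne]
  have hcomap : ∀ S : Submodule (ZMod 2) D.V, Nat.card {x : Q // D.cls x ∈ S} = 2 * Nat.card S := by
    intro S
    let S' : Subgroup (Multiplicative D.V) := AddSubgroup.toSubgroup S.toAddSubgroup
    have e1 : Nat.card {x : Q // D.cls x ∈ S} = Nat.card (S'.comap f) := rfl
    have e2 : Nat.card S = Nat.card S' := rfl
    have e3 := Subgroup.card_mul_index (S'.comap f)
    have e4 := Subgroup.card_mul_index S'
    rw [Subgroup.index_comap_of_surjective S' hfs] at e3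
    have e5 : Nat.card Q = 2 * Nat.card (Multiplicative D.V) := by
      have e6 := Subgroup.card_mul_index f.ker
      rw [hfk2, Subgroup.index_ker, MonoidHom.range_eq_top.2 hfs] at e6
      rw [← e6, Subgroup.card_top]
    have e7 : 0 < S'.index := Nat.pos_of_ne_zero (Subgroup.index_ne_zero_of_finite)
    rw [e1, e2]
    apply Nat.eq_of_mul_eq_mul_right e7
    rw [e3, e5, mul_assoc, e4]
  have hV : Nat.card Q = 2 * 2 ^ finrank (ZMod 2) D.V := by
    have h1 := hcomap ⊤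
    have h2 : Nat.card {x : Q // D.cls x ∈ (⊤ : Submodule (ZMod 2) D.V)} = Nat.card Q :=
      Nat.card_congr (Equiv.subtypeUnivEquiv (fun x => Submodule.mem_top))
    have h3 : Nat.card (⊤ : Submodule (ZMod 2) D.V) = 2 ^ finrank (ZMod 2) D.V := by
      rw [Module.natCard_eq_pow_finrank (K := ZMod 2), Nat.card_zmod, finrank_top]
    rw [← h2, h1, h3]
  have hRR : Nat.card {x : Q // ∀ y ∈ Q, (x : H) * y = y * x} = 2 * 2 ^ finrank (ZMod 2) R := by
    have h1 := hcomap R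
    have h3 : Nat.card R = 2 ^ finrank (ZMod 2) R := by
      rw [Module.natCard_eq_pow_finrank (K := ZMod 2), Nat.card_zmod]
    rw [← h3, ← h1]
    exact Nat.card_congr (Equiv.subtypeEquivRight (fun x => (hRc x).symm))
  have hFF : Nat.card {x : Q // ∀ y ∈ Q, (c * x * c⁻¹ * (x : H)⁻¹) * y = y * (c * x * c⁻¹ * (x : H)⁻¹)}
      = 2 * 2 ^ finrank (ZMod 2) F := by
    have h1 := hcomap F
    have h3 : Nat.card F = 2 ^ finrank (ZMod 2) F := by
      rw [Module.natCard_eq_pow_finrank (K := ZMod 2), Nat.card_zmod]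
    rw [← h3, ← h1]
    refine Nat.card_congr (Equiv.subtypeEquivRight (fun x => ?_))
    have h4 : D.cls x ∈ F ↔ D.cls (K c₁ x * x⁻¹) ∈ R := by
      have hinv : D.cls x⁻¹ = D.cls x := by
        rw [D.cls_eq]
        rcases h.pow x x.2 with e' | e'
        · left
          exact (inv_eq_of_mul_eq_one_right e').symm
        · right
          have : (x : H)⁻¹ * x * x = (x : H)⁻¹ * ζ := by rw [mul_assoc, e']
          simpa using this
      rw [D.cls_mul, hinv, ← hL]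
      exact Iff.rfl
    rw [h4, hRc]
    have h5 : ((K c₁ x * x⁻¹ : Q) : H) = c * x * c⁻¹ * (x : H)⁻¹ := by
      show c₁ * x * c₁⁻¹ * (x : H)⁻¹ = _
      rw [← e]
      calc c * ζ * x * (c * ζ)⁻¹ * (x : H)⁻¹ = c * (ζ * x * ζ⁻¹) * c⁻¹ * (x : H)⁻¹ := by group
        _ = c * x * c⁻¹ * (x : H)⁻¹ := by rw [← h.central x]; group
    rw [h5]
  rw [hV, hRR, hFF] at hact
  have h1 : 2 ^ finrank (ZMod 2) D.V ≤ 2 ^ finrank (ZMod 2) F * (2 ^ finrank (ZMod 2) R) ^ 2 := by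
    rw [← pow_mul, ← pow_add, mul_comm (finrank (ZMod 2) R) 2]
    exact Nat.pow_le_pow_right (by norm_num) hγ
  have h2 : 2 * 2 ^ finrank (ZMod 2) F * (2 * 2 ^ finrank (ZMod 2) R) ^ 2
      = 4 * (2 * (2 ^ finrank (ZMod 2) F * (2 ^ finrank (ZMod 2) R) ^ 2)) := by ring
  rw [h2] at hact
  omega

end Cfsg.Agent.H201.F4
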